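import Cfsg.Agent.H8.Cl6

/-! H8.Cl7: the subgroups of index 6 of `S₆`. -/

namespace H8.Cl7
open Subgroup Equiv Equiv.Perm MulAction

abbrev S6 := Perm (Fin 6)

theorem exists_aut (H : Subgroup S6) (hH : H.index = 6) : ∃ (φ : MulAut S6) (a : Fin 6), H = (stabilizer S6 a).comap φ.toMonoidHom := by
  classical
  have := Fintype.ofFinite (S6 ⧸ H)
  let e : (S6 ⧸ H) ≃ Fin 6 := Fintype.equivOfCardEq (by rw [← Nat.card_eq_fintype_card, ← index_eq_card, hH]; rfl)
  let ψ : S6 →* S6 := e.permCongrHom.toMonoidHom.comp (toPermHom _ (_ ⧸ H))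
  have I : Function.Injective ψ := by
    refine e.permCongrHom.injective.comp ((MonoidHom.ker_eq_bot_iff _).1 ?_)
    rw [← normalCore_eq_ker]
    refine H.normalCore.bot_or_nontrivial.resolve_right fun e => ?_
    have := index_dvd_of_le ((alternatingGroup_le_of_normal (by simp) e).trans H.normalCore_le)
    rw [alternatingGroup.index_eq_two, hH] at this
    omega
  refine ⟨MulEquiv.ofBijective ψ (Finite.injective_iff_bijective.1 I), e (1 : S6), Subgroup.ext fun g => ?_⟩
  change _ ↔ e (g • e.symm (e (1 : S6))) = e (1 : S6)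
  rw [e.symm_apply_apply, e.apply_eq_iff_eq, ← mem_stabilizer_iff, stabilizer_quotient]

theorem comap_conj (g : S6) (a : Fin 6) : (stabilizer S6 a).comap (MulAut.conj g).toMonoidHom = stabilizer S6 (g⁻¹ a) :=
  Subgroup.ext fun x => by
    change g (x (g⁻¹ a)) = a ↔ x (g⁻¹ a) = g⁻¹ a
    rw [eq_inv_iff_eq]

theorem idx (a : Fin 6) : (stabilizer S6 a).index = 6 := by rw [index_stabilizer_of_transitive]; simp

theorem stab_inj : Function.Injective (stabilizer S6 : Fin 6 → _) := fun a b h => by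
  by_contra e
  obtain ⟨c, h1, h2⟩ := (show ∀ a b : Fin 6, ∃ c, c ≠ a ∧ c ≠ b by decide) a b
  have : swap b c ∈ stabilizer S6 a := swap_apply_of_ne_of_ne e h1.symm
  rw [h] at this
  exact h2 ((swap_apply_left b c).symm.trans this)

theorem main : ∃ τ : MulAut S6, (∀ a b : Fin 6, (stabilizer S6 a).comap τ.toMonoidHom ≠ stabilizer S6 b) ∧
    ∀ H : Subgroup S6, H.index = 6 ↔ ∃ a : Fin 6, H = stabilizer S6 a ∨ H = (stabilizer S6 a).comap τ.toMonoidHom := by
  obtain ⟨K, hK, h⟩ := Cl6.pgl5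
  obtain ⟨τ, a, rfl⟩ := exists_aut K hK
  have tr : ∀ a b : Fin 6, ∃ g : S6, g⁻¹ a = b := fun a b => ⟨swap a b, by simp⟩
  have h1 : ∀ a b : Fin 6, (stabilizer S6 a).comap τ.toMonoidHom ≠ stabilizer S6 b := fun c b e => by
    obtain ⟨g, rfl⟩ := tr c a
    refine h ((τ.symm g)⁻¹ b) ?_
    rw [← comap_conj, ← comap_conj, ← e, comap_comap, comap_comap]
    congr 1; ext1 x; simp
  refine ⟨τ, h1, fun H => ⟨fun hH => ?_, ?_⟩⟩
  · obtain ⟨φ, b, rfl⟩ := exists_aut H hH
    let I := (MulAut.conj : S6 →* _).range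
    have hτ : τ ∉ I := fun ⟨g, e⟩ => h1 a _ (e ▸ comap_conj g a)
    have c : Nat.card I = 720 := by
      rw [← Nat.card_congr (MonoidHom.ofInjective (f := (MulAut.conj : S6 →* _)) ((injective_iff_map_eq_one _).2 fun g hg => ?_)).toEquiv]
      · rw [Nat.card_perm]; simp [Nat.factorial]
      · have := comap_conj g
        rw [hg] at this
        exact inv_eq_one.1 (Equiv.ext fun a => (stab_inj (this a)).symm)
    have i2 : I.index = 2 := by
      have a1 := I.card_mul_index.trans_le Cl5.s6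
      have a3 : I.index ≠ 1 := fun e => hτ (index_eq_one.1 e ▸ mem_top τ)
      have a4 : I.index ≠ 0 := index_ne_zero_of_finite
      rw [c] at a1; omega
    by_cases hφ : φ ∈ I
    · obtain ⟨g, rfl⟩ := hφ
      exact ⟨_, Or.inl (comap_conj g b)⟩
    · obtain ⟨g, e⟩ : φ * τ⁻¹ ∈ I := (mul_mem_iff_of_index_two i2).2 (iff_of_false hφ (mt inv_mem_iff.1 hτ))
      refine ⟨g⁻¹ b, Or.inr ?_⟩
      rw [← comap_conj, comap_comap, ← eq_mul_inv_iff_mul_eq.1 e]; rfl
  · rintro ⟨a, rfl | rfl⟩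
    · exact idx a
    · rw [index_comap_of_surjective _ τ.surjective, idx]

theorem stab_iso (a : Fin 6) : Nonempty (stabilizer S6 a ≃* Perm (Fin 5)) := by
  classical
  have e : {x // x ≠ a} ≃ Fin 5 := Fintype.equivFinOfCardEq (by simp)
  have I : Function.Injective (ofSubtype : Perm {x // x ≠ a} →* S6) := ofSubtype_injective
  refine ⟨(MulEquiv.subgroupCongr ?_).trans ((MonoidHom.ofInjective I).symm.trans e.permCongrHom)⟩
  symm
  refine eq_of_le_of_card_ge (by rintro _ ⟨g, rfl⟩; exact ofSubtype_apply_of_not_mem g (by simp)) ?_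
  have := (stabilizer S6 a).index_mul_card
  rw [idx, Nat.card_perm] at this
  rw [← Nat.card_congr (MonoidHom.ofInjective I).toEquiv, Nat.card_perm, Nat.card_congr e]
  rw [Nat.card_fin] at this ⊢
  generalize Nat.card (stabilizer S6 a) = c at this
  simp [Nat.factorial] at this ⊢; omega

end H8.Cl7
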