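import Cfsg.Agent.H8.Lat
import Cfsg.Agent.H8.MG
import Cfsg.Agent.H8.Alt

/-! H8.LA0: subgroups of GL(4,2): the list (generated certificate) -/

set_option autoImplicit false
set_option maxRecDepth 200000

set_option linter.all false
open Subgroup 

namespace H8.LA

noncomputable def AW : Tr (List (List ℕ)) := (.node (nat_lit 8) (.node (nat_lit 4) (.node (nat_lit 2) (.node (nat_lit 1) (.leaf [[nat_lit 0, nat_lit 5, nat_lit 1, nat_lit 4, nat_lit 2, nat_lit 1, nat_lit 0, nat_lit 3, nat_lit 2, nat_lit 1, nat_lit 0]]) (.leaf [[nat_lit 3, nat_lit 1, nat_lit 5, nat_lit 4, nat_lit 0, nat_lit 4, nat_lit 3, nat_lit 2, nat_lit 3, nat_lit 1]])) (.node (nat_lit 3) (.leaf [[nat_lit 3, nat_lit 2, nat_lit 1, nat_lit 5, nat_lit 4, nat_lit 2, nat_lit 1, nat_lit 4, nat_lit 2, nat_lit 1, nat_lit 0, nat_lit 3, nat_lit 1], [nat_lit 2, nat_lit 1,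 nat_lit 5, nat_lit 4, nat_lit 2, nat_lit 1, nat_lit 4, nat_lit 3, nat_lit 0, nat_lit 3, nat_lit 2, nat_lit 0]]) (.leaf [[nat_lit 1, nat_lit 5, nat_lit 1, nat_lit 4, nat_lit 2, nat_lit 1, nat_lit 0, nat_lit 3, nat_lit 2], [nat_lit 3, nat_lit 1, nat_lit 5, nat_lit 0, nat_lit 4, nat_lit 3, nat_lit 2, nat_lit 0, nat_lit 3, nat_lit 1, nat_lit 0]])))
 (.node (nat_lit 6) (.node (nat_lit 5) (.leaf [[nat_lit 4, nat_lit 0, nat_lit 5, nat_lit 1, nat_lit 4, nat_lit 3, nat_lit 2, nat_lit 3, nat_lit 1, nat_lit 0], [nat_lit 1, nat_lit 0, nat_lit 5, nat_lit 3, nat_lit 1, nat_lit 4, nat_lit 3, nat_lit 0, nat_lit 3, nat_lit 1, nat_lit 0]]) (.leaf [[nat_lit 4, nat_lit 0, nat_lit 5, nat_lit 1, nat_lit 4, nat_lit 3, nat_lit 2, nat_lit 1, nat_lit 0], [nat_lit 1, nat_lit 0, nat_lit 4, nat_lit 1, nat_lit 0, nat_lit 3, nat_lit 1, nat_lit 0]])) (.node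 (nat_lit 7) (.leaf [[nat_lit 0, nat_lit 5, nat_lit 1, nat_lit 4, nat_lit 2, nat_lit 1, nat_lit 0, nat_lit 3, nat_lit 2, nat_lit 1, nat_lit 0], [nat_lit 5, nat_lit 1, nat_lit 5, nat_lit 4, nat_lit 0, nat_lit 4, nat_lit 1, nat_lit 0]]) (.leaf [[nat_lit 5, nat_lit 4, nat_lit 5, nat_lit 3, nat_lit 1, nat_lit 0, nat_lit 4, nat_lit 3, nat_lit 1, nat_lit 0], [nat_lit 3, nat_lit 1, nat_lit 5, nat_lit 2, nat_lit 4, nat_lit 0, nat_lit 3, nat_lit 2]]))))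
 (.node (nat_lit 12) (.node (nat_lit 10) (.node (nat_lit 9) (.leaf [[nat_lit 2, nat_lit 0, nat_lit 5, nat_lit 2, nat_lit 1, nat_lit 4, nat_lit 3, nat_lit 0, nat_lit 3, nat_lit 2, nat_lit 1], [nat_lit 1, nat_lit 4, nat_lit 3, nat_lit 0, nat_lit 3, nat_lit 1, nat_lit 0]]) (.leaf [[nat_lit 3, nat_lit 1, nat_lit 5, nat_lit 3, nat_lit 1, nat_lit 4, nat_lit 1, nat_lit 0], [nat_lit 5, nat_lit 4, nat_lit 5, nat_lit 1, nat_lit 4, nat_lit 2]])) (.node (nat_lit 11) (.leaf [[nat_lit 3, nat_lit 1, nat_lit 5, nat_lit 2, nat_lit 3, nat_lit 1, nat_lit 0], [nat_lit 5, nat_lit 2, nat_lit 1, nat_lit 0, nat_lit 3, nat_lit 2, nat_lit 0]]) (.leaf [[nat_lit 5, nat_lit 4, nat_lit 5, nat_lit 1, nat_lit 0, nat_lit 4, nat_lit 2, nat_lit 1, nat_lit 3, nat_lit 2], [nat_lit 2, nat_lit 1, nat_lit 5, nat_lit 1, nat_lit 0, nat_lit 4, nat_lit 3, nat_lit 2, nat_lit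 0, nat_lit 3, nat_lit 1]])))
 (.node (nat_lit 14) (.node (nat_lit 13) (.leaf [[nat_lit 3, nat_lit 1, nat_lit 5, nat_lit 2, nat_lit 4, nat_lit 2, nat_lit 3, nat_lit 2, nat_lit 1], [nat_lit 0, nat_lit 5, nat_lit 3, nat_lit 2, nat_lit 1, nat_lit 4, nat_lit 3]]) (.leaf [[nat_lit 5, nat_lit 1, nat_lit 5, nat_lit 0, nat_lit 4, nat_lit 3, nat_lit 2, nat_lit 0, nat_lit 3, nat_lit 0], [nat_lit 3, nat_lit 1, nat_lit 5, nat_lit 4, nat_lit 0, nat_lit 4, nat_lit 2, nat_lit 3, nat_lit 1]])) (.node (nat_lit 15) (.leaf [[nat_lit 2, nat_lit 5, nat_lit 4, nat_lit 0, nat_lit 4, nat_lit 3, nat_lit 0, nat_lit 3, nat_lit 1], [nat_lit 3, nat_lit 1, nat_lit 5, nat_lit 3, nat_lit 2, nat_lit 1, nat_lit 4, nat_lit 3, nat_lit 2, nat_lit 0, nat_lit 3]]) (.leaf [[nat_lit 1, nat_lit 5, nat_lit 4, nat_lit 2, nat_lit 1, nat_lit 4, nat_lit 3, nat_lit 2, nat_lit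 3, nat_lit 2, nat_lit 1, nat_lit 0], [nat_lit 5, nat_lit 1, nat_lit 5, nat_lit 3, nat_lit 2, nat_lit 1, nat_lit 4, nat_lit 3, nat_lit 2, nat_lit 1]])))))
def Q (H : Type*) [Group H] : Prop := QS H ∨ (∃ n : ℕ, 5 ≤ n ∧ n ≤ 8 ∧ Nonempty (H ≃* alternatingGroup (Fin n))) ∨
  Nonempty (H ≃* Equiv.Perm (Fin 5)) ∨ Nonempty (H ≃* Equiv.Perm (Fin 6)) ∨ Nonempty (H ≃* GL (Fin 3) (ZMod 2))
theorem Q.congr {H K : Type*} [Group H] [Group K] (e : Nonempty (H ≃* K)) (h : Q K) : Q H :=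
  let ⟨e⟩ := e
  h.imp (QS.congr e) (Or.imp (fun ⟨n, a, b, ⟨f⟩⟩ => ⟨n, a, b, ⟨e.trans f⟩⟩) (Or.imp (fun ⟨f⟩ => ⟨e.trans f⟩)
    (Or.imp (fun ⟨f⟩ => ⟨e.trans f⟩) fun ⟨f⟩ => ⟨e.trans f⟩)))

end H8.LA
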