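import Cfsg.Agent.H8.LA1
import Cfsg.Agent.H8.LA2
import Cfsg.Agent.H8.LA3
import Cfsg.Agent.H8.LA4
import Cfsg.Agent.H1.HallConv

/-! H8.LA5: the subgroups of GL(4,2). -/

set_option autoImplicit false
set_option linter.all false
open Subgroup

namespace H8.LA
variable {G : Type*} [Group G] [Finite G] {X : Type*} [MulAction G X] {pt : ℕ → X}
  (C : Ch G 15 (nat_lit 4) (nat_lit 15) pt MG.gl42T MG.gl42L)
include C

theorem q15 {H : Subgroup G} (h : PJ C.lets.e AW 15 H) : Q H := by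
  obtain ⟨K, e, h | ⟨j, hj, h⟩⟩ := s15 C h
  · exact h.congr e
  · cases hj
theorem q14 {H : Subgroup G} (h : PJ C.lets.e AW 14 H) : Q H := by
  obtain ⟨K, e, h | ⟨j, hj, h⟩⟩ := s14 C h
  · exact h.congr e
  simp only [List.mem_cons, List.not_mem_nil, or_false] at hj
  rcases hj with rfl
  exacts [(q15 C h).congr e]
theorem q13 {H : Subgroup G} (h : PJ C.lets.e AW 13 H) : Q H := by
  obtain ⟨K, e, h | ⟨j, hj, h⟩⟩ := s13 C h
  · exact h.congr e
  simp only [List.mem_cons, List.not_mem_nil, or_false] at hj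
  rcases hj with rfl
  exacts [(q14 C h).congr e]
theorem q12 {H : Subgroup G} (h : PJ C.lets.e AW 12 H) : Q H := by
  obtain ⟨K, e, h | ⟨j, hj, h⟩⟩ := s12 C h
  · exact h.congr e
  simp only [List.mem_cons, List.not_mem_nil, or_false] at hj
  rcases hj with rfl
  exacts [(q14 C h).congr e]
theorem q11 {H : Subgroup G} (h : PJ C.lets.e AW 11 H) : Q H := by
  obtain ⟨K, e, h | ⟨j, hj, h⟩⟩ := s11 C h
  · exact h.congr e
  simp only [List.mem_cons, List.not_mem_nil, or_false] at hj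
  rcases hj with rfl | rfl | rfl
  exacts [(q12 C h).congr e, (q13 C h).congr e, (q14 C h).congr e]
theorem q10 {H : Subgroup G} (h : PJ C.lets.e AW 10 H) : Q H := by
  obtain ⟨K, e, h | ⟨j, hj, h⟩⟩ := s10 C h
  · exact h.congr e
  simp only [List.mem_cons, List.not_mem_nil, or_false] at hj
  rcases hj with rfl | rfl | rfl
  exacts [(q12 C h).congr e, (q13 C h).congr e, (q14 C h).congr e]
theorem q9 {H : Subgroup G} (h : PJ C.lets.e AW 9 H) : Q H := by
  obtain ⟨K, e, h | ⟨j, hj, h⟩⟩ := s9 C h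
  · exact h.congr e
  simp only [List.mem_cons, List.not_mem_nil, or_false] at hj
  rcases hj with rfl | rfl | rfl
  exacts [(q12 C h).congr e, (q13 C h).congr e, (q14 C h).congr e]
theorem q1 {H : Subgroup G} (h : PJ C.lets.e AW 1 H) : Q H := by
  obtain ⟨K, e, h | ⟨j, hj, h⟩⟩ := s1 C h
  · exact h.congr e
  simp only [List.mem_cons, List.not_mem_nil, or_false] at hj
  rcases hj with rfl | rfl | rfl | rfl | rfl
  exacts [(q9 C h).congr e, (q10 C h).congr e, (q11 C h).congr e, (q12 C h).congr e, (q13 C h).congr e]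
theorem q8 {H : Subgroup G} (h : PJ C.lets.e AW 8 H) : Q H := by
  obtain ⟨K, e, h | ⟨j, hj, h⟩⟩ := s8 C h
  · exact h.congr e
  simp only [List.mem_cons, List.not_mem_nil, or_false] at hj
  rcases hj with rfl
  exacts [(q1 C h).congr e]
theorem q7 {H : Subgroup G} (h : PJ C.lets.e AW 7 H) : Q H := by
  obtain ⟨K, e, h | ⟨j, hj, h⟩⟩ := s7 C h
  · exact h.congr e
  simp only [List.mem_cons, List.not_mem_nil, or_false] at hj
  rcases hj with rfl | rfl
  exacts [(q1 C h).congr e, (q8 C h).congr e]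
theorem q6 {H : Subgroup G} (h : PJ C.lets.e AW 6 H) : Q H := by
  obtain ⟨K, e, h | ⟨j, hj, h⟩⟩ := s6 C h
  · exact h.congr e
  simp only [List.mem_cons, List.not_mem_nil, or_false] at hj
  rcases hj with rfl
  exacts [(q1 C h).congr e]
theorem q5 {H : Subgroup G} (h : PJ C.lets.e AW 5 H) : Q H := by
  obtain ⟨K, e, h | ⟨j, hj, h⟩⟩ := s5 C h
  · exact h.congr e
  simp only [List.mem_cons, List.not_mem_nil, or_false] at hj
  rcases hj with rfl | rfl
  exacts [(q1 C h).congr e, (q7 C h).congr e]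
theorem q4 {H : Subgroup G} (h : PJ C.lets.e AW 4 H) : Q H := by
  obtain ⟨K, e, h | ⟨j, hj, h⟩⟩ := s4 C h
  · exact h.congr e
  simp only [List.mem_cons, List.not_mem_nil, or_false] at hj
  rcases hj with rfl | rfl | rfl
  exacts [(q1 C h).congr e, (q6 C h).congr e, (q7 C h).congr e]
theorem q3 {H : Subgroup G} (h : PJ C.lets.e AW 3 H) : Q H := by
  obtain ⟨K, e, h | ⟨j, hj, h⟩⟩ := s3 C h
  · exact h.congr e
  simp only [List.mem_cons, List.not_mem_nil, or_false] at hj
  rcases hj with rfl | rfl | rfl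
  exacts [(q1 C h).congr e, (q5 C h).congr e, (q7 C h).congr e]
theorem q2 {H : Subgroup G} (h : PJ C.lets.e AW 2 H) : Q H := by
  obtain ⟨K, e, h | ⟨j, hj, h⟩⟩ := s2 C h
  · exact h.congr e
  simp only [List.mem_cons, List.not_mem_nil, or_false] at hj
  rcases hj with rfl | rfl | rfl | rfl
  exacts [(q1 C h).congr e, (q4 C h).congr e, (q6 C h).congr e, (q7 C h).congr e]
theorem q0 {H : Subgroup G} (h : PJ C.lets.e AW 0 H) : Q H := by
  obtain ⟨K, e, h | ⟨j, hj, h⟩⟩ := s0 C h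
  · exact h.congr e
  simp only [List.mem_cons, List.not_mem_nil, or_false] at hj
  rcases hj with rfl | rfl | rfl
  exacts [(q1 C h).congr e, (q2 C h).congr e, (q3 C h).congr e]

theorem pj {H : Subgroup G} {j p : ℕ} (hp : p.Prime) (hd : p ∣ Nat.card H) (h2 : ¬ p ^ 2 ∣ 20160) {w : List ℕ} (hw : AW.get j = [w])
    (ho : ordF (MG.gl42L.map Lev.b) 20 (apL (nat_lit 4) (nat_lit 15) MG.gl42T w) = p) : PJ C.lets.e AW j H := by
  haveI := Fact.mk hp
  obtain ⟨y, hy⟩ := exists_prime_orderOf_dvd_card' p hd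
  obtain ⟨c, hc⟩ := conj_zpowers hp (by rwa [C.card, show chainOrd 15 MG.gl42L = 20160 by decide +kernel])
    ((ordF_spec C.inj C.base (apL_rep C.lets.rep w) (ho ▸ hp.ne_zero)).trans ho) ((orderOf_coe y).trans hy)
  refine ⟨c⁻¹, fun v hv => ?_⟩
  rw [hw, List.mem_singleton] at hv
  obtain ⟨i, e⟩ := mem_zpowers_iff.1 hc
  rw [hv, ← e, conj_zpow]
  simpa [mul_assoc] using zpow_mem y.2 i

theorem all (H : Subgroup G) (hH : H ≠ ⊥) : Q H := by
  by_cases h5 : 5 ∣ Nat.card H
  · exact q0 C (pj C (by norm_num) h5 (by norm_num) rfl (by decide +kernel))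
  by_cases h7 : 7 ∣ Nat.card H
  · exact q1 C (pj C (by norm_num) h7 (by norm_num) rfl (by decide +kernel))
  have hs : Group.IsSolvable H := H1.isSolvable_of_two_primes Nat.prime_two Nat.prime_three fun r hr hd => by
    have d := hd.trans H.card_subgroup_dvd_card
    rw [C.card, show chainOrd 15 MG.gl42L = 2 ^ 6 * 3 ^ 2 * 5 * 7 by decide +kernel] at d
    rcases (Nat.Prime.dvd_mul hr).1 d with d | d
    · rcases (Nat.Prime.dvd_mul hr).1 d with d | d
      · exact ((Nat.Prime.dvd_mul hr).1 d).imp (fun d => (Nat.prime_dvd_prime_iff_eq hr Nat.prime_two).1 (hr.dvd_of_dvd_pow d))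
          fun d => (Nat.prime_dvd_prime_iff_eq hr Nat.prime_three).1 (hr.dvd_of_dvd_pow d)
      · exact absurd ((Nat.prime_dvd_prime_iff_eq hr (by norm_num)).1 d ▸ hd) h5
    · exact absurd ((Nat.prime_dvd_prime_iff_eq hr (by norm_num)).1 d ▸ hd) h7
  haveI := (nontrivial_iff_ne_bot H).2 hH
  obtain ⟨M, p, hp, m1, m2, -, -, -, m3, -⟩ := H1.exists_minimal_normal_elementary (⊤ : Subgroup H) inferInstance top_ne_bot
  exact .inl ⟨p, hp, M, m1, m2, m3⟩

end H8.LA
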