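import Cfsg.Agent.H8.Cl4
import Cfsg.Agent.H8.Spec

/-! H8.Ree: the inequality of Ree and Scott for permutation groups generated by two elements. -/

set_option autoImplicit false
set_option linter.all false
open Subgroup Module LinearMap

namespace H8

theorem scott {F V : Type*} [Field F] [AddCommGroup V] [Module F V] [FiniteDimensional F V] (A B : Module.End F V)
    (hA : Function.Injective A) : finrank F (ker (1 - A)) + finrank F (ker (1 - B)) + finrank F (ker (1 - A * B)) +
      finrank F ↥(range (1 - A) ⊔ range (1 - B)) ≤ 2 * finrank F V + finrank F ↥(ker (1 - A) ⊓ ker (1 - B)) := by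
  have a1 := finrank_range_add_finrank_ker (1 - A)
  have a2 := finrank_range_add_finrank_ker (1 - B)
  have a3 := Submodule.finrank_sup_add_finrank_inf_eq (range (1 - A)) ((range (1 - B)).map A)
  have a4 : finrank F ((range (1 - B)).map A) ≤ finrank F (range (1 - B)) := Submodule.finrank_map_le _ _
  have a5 : finrank F ↥(range (1 - A) ⊔ range (1 - B)) ≤ finrank F ↥(range (1 - A) ⊔ (range (1 - B)).map A) :=
    Submodule.finrank_mono (sup_le le_sup_left fun w hw => by
      have := Submodule.add_mem_sup (mem_range_self (1 - A) w) (Submodule.mem_map_of_mem (f := A) hw)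
      simpa using this)
  have a6 := finrank_range_add_finrank_ker ((1 - A).domRestrict (ker (1 - A * B)))
  have e : ∀ v ∈ ker (1 - A * B), A (B v) = v := fun v hv => (sub_eq_zero.1 (by simpa using hv)).symm
  have a7 : finrank F (range ((1 - A).domRestrict (ker (1 - A * B)))) ≤ finrank F ↥(range (1 - A) ⊓ (range (1 - B)).map A) :=
    Submodule.finrank_mono (by
      rintro _ ⟨⟨v, hv⟩, rfl⟩
      exact ⟨mem_range_self _ _, _, mem_range_self (1 - B) (-v), by simp [e v hv, sub_eq_add_neg, add_comm]⟩)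
  have a8 : finrank F (ker ((1 - A).domRestrict (ker (1 - A * B)))) ≤ finrank F ↥(ker (1 - A) ⊓ ker (1 - B)) := by
    rw [← Submodule.finrank_map_subtype_eq]
    refine Submodule.finrank_mono ?_
    rintro _ ⟨⟨v, hv⟩, h, rfl⟩
    have h1 : v = A v := sub_eq_zero.1 (by simpa using h)
    exact ⟨h, by simpa using sub_eq_zero.2 (hA (h1.symm.trans (e v hv).symm))⟩
  omega

variable {G : Type*} [Group G] {X : Type*} [MulAction G X]

/-- `g` has at least `K` cycles -/
def Cyc (X : Type*) [MulAction G X] (g : G) (K : ℕ) : Prop := ∃ c : X → Fin K, Function.Surjective c ∧ ∀ x, c (g • x) = c x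

theorem Cyc.conj {g h c : G} {K : ℕ} (H : Cyc X g K) (e : h ∈ zpowers (c * g * c⁻¹)) : Cyc X h K := by
  obtain ⟨f, f1, f2⟩ := H
  let S : Subgroup G :=
    { carrier := {g | ∀ x : X, f (c⁻¹ • g • x) = f (c⁻¹ • x)}
      one_mem' := fun x => by rw [one_smul]
      mul_mem' := fun {a b} ha hb x => by rw [mul_smul, ha, hb]
      inv_mem' := fun {a} ha x => by rw [← ha, smul_inv_smul] }
  exact ⟨fun x => f (c⁻¹ • x), f1.comp (MulAction.toPerm c⁻¹).surjective,
    (zpowers_le (H := S)).2 (fun x => by rw [mul_smul, mul_smul, inv_smul_smul, f2]) e⟩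

theorem ree [Fintype X] {x y z : G} (h : x * y * z = 1) (hg : closure {x, y} = ⊤) {t : ℕ} (R : Fin t → X)
    (hR : ∀ a, ∃ (g : G) (j : Fin t), a = g • R j) {i j k : ℕ} (hx : Cyc X x i) (hy : Cyc X y j) (hz : Cyc X z k) :
    i + j + k ≤ Fintype.card X + 2 * t := by
  classical
  let L : G → Module.End ℚ (X → ℚ) := fun g => funLeft ℚ ℚ (g⁻¹ • ·)
  have Lm : ∀ g h, L (g * h) = L g * L h := fun g h => by ext v a; simp [L, mul_smul]
  have L1 : L 1 = 1 := by ext v a; simp [L]
  have ck : ∀ {g : G} {K}, Cyc X g K → K ≤ finrank ℚ (ker (1 - L g⁻¹)) := fun {g K} ⟨c, c1, c2⟩ => by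
    have := finrank_le_finrank_of_injective (f := (funLeft ℚ ℚ c).codRestrict (ker (1 - L g⁻¹)) fun v => by
      ext a; simp [L, c2]) fun a b e => funLeft_injective_of_surjective ℚ ℚ c c1 (congrArg Subtype.val e)
    simpa using this
  have cv : ∀ {g : G} {K}, Cyc X g K → Cyc X g⁻¹ K := fun {g K} H => H.conj (c := 1) (by simp)
  have s := scott (L x) (L y) (Function.LeftInverse.injective (g := L x⁻¹) fun v => by
    rw [← Module.End.mul_apply, ← Lm, inv_mul_cancel, L1]; rfl)
  have b1 := ck (cv hx)
  have b2 := ck (cv hy)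
  have b3 := ck hz
  rw [inv_inv] at b1 b2
  rw [← eq_inv_of_mul_eq_one_left h, Lm] at b3
  have gen : ∀ S : Subgroup G, x ∈ S → y ∈ S → ∀ g, g ∈ S := fun S h1 h2 g =>
    (closure_le S).2 (by rintro _ (rfl | rfl) <;> assumption) (hg ▸ mem_top g)
  have li : ∀ g v, L g (L g⁻¹ v) = v := fun g v => by rw [← Module.End.mul_apply, ← Lm, mul_inv_cancel, L1]; rfl
  have b4 : finrank ℚ ↥(ker (1 - L x) ⊓ ker (1 - L y)) ≤ t := by
    have := finrank_le_finrank_of_injective (f := (funLeft ℚ ℚ R).domRestrict (ker (1 - L x) ⊓ ker (1 - L y)))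
      ((injective_iff_map_eq_zero _).2 fun ⟨v, h1, h2⟩ e => Subtype.ext (funext fun a => by
        let S : Subgroup G :=
          { carrier := {g | L g v = v}
            one_mem' := by simp [L1]
            mul_mem' := fun {a b} ha hb => by rw [Set.mem_setOf, Lm, Module.End.mul_apply, hb, ha]
            inv_mem' := fun {a} ha => by
              have := li a⁻¹ v
              rwa [inv_inv, ha] at this }
        obtain ⟨g, j, rfl⟩ := hR a
        have := congrFun (gen S (sub_eq_zero.1 (by simpa using h1)).symm (sub_eq_zero.1 (by simpa using h2)).symm g⁻¹) (R j)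
        simp only [L, funLeft_apply, inv_inv] at this
        exact this.trans (congrFun e j)))
    simpa using this
  have b5 : Fintype.card X ≤ finrank ℚ ↥(range (1 - L x) ⊔ range (1 - L y)) + t := by
    generalize hW : range (1 - L x) ⊔ range (1 - L y) = W
    let S : Subgroup G :=
      { carrier := {g | ∀ v, v - L g v ∈ W}
        one_mem' := fun v => by simp [L1]
        mul_mem' := fun {a b} ha hb v => by simpa [Lm] using W.add_mem (hb v) (ha (L b v))
        inv_mem' := fun {a} ha v => by simpa [li] using W.neg_mem (ha (L a⁻¹ v)) }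
    have m := gen S (fun v => hW ▸ Submodule.mem_sup_left (mem_range_self (1 - L x) v))
      fun v => hW ▸ Submodule.mem_sup_right (mem_range_self (1 - L y) v)
    have e : W ⊔ Submodule.span ℚ (Set.range fun j => (Pi.single (R j) 1 : X → ℚ)) = ⊤ := by
      rw [eq_top_iff, ← (Pi.basisFun ℚ X).span_eq, Submodule.span_le]
      rintro _ ⟨a, rfl⟩
      obtain ⟨g, j, rfl⟩ := hR a
      have := Submodule.add_mem_sup (W.neg_mem (m g (Pi.single (R j) 1))) (Submodule.subset_span (R := ℚ)
        (Set.mem_range_self (f := fun j => (Pi.single (R j) 1 : X → ℚ)) j))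
      refine Set.mem_of_eq_of_mem ?_ this
      ext a
      simp [L, Pi.single_apply, inv_smul_eq_iff]
    have := Submodule.finrank_add_le_finrank_add_finrank W (Submodule.span ℚ (Set.range fun j => (Pi.single (R j) 1 : X → ℚ)))
    have h2 := finrank_range_le_card (R := ℚ) fun j => (Pi.single (R j) 1 : X → ℚ)
    rw [e] at this
    simp only [Set.finrank, finrank_top, finrank_fintype_fun_eq_card, Fintype.card_fin] at this h2
    omega
  rw [finrank_fintype_fun_eq_card] at s
  omega

theorem cyc_of {n : ℕ} [NeZero n] [MulAction G (Fin n)] {f : ℕ → ℕ} {g : G} (r : RepF n (Fin.ofNat n) f g) (K c : ℕ)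
    (h : band (allB n fun a => band (Nat.ble (ap 8 255 c a + 1) K) (Nat.beq (ap 8 255 c (f a)) (ap 8 255 c a)))
      (allB K fun j => anyB n fun a => Nat.beq (ap 8 255 c a) j) = true) : Cyc (Fin n) g K := by
  simp only [band_eq_true, allB_iff, Nat.ble_eq, Nat.beq_eq] at h
  refine ⟨fun a => ⟨ap 8 255 c a, (h.1 a a.2).1⟩, fun j => ?_, fun a => Fin.ext ?_⟩
  · obtain ⟨a, ha, e⟩ := anyB_spec (h.2 j j.2)
    exact ⟨⟨a, ha⟩, Fin.ext (Nat.eq_of_beq_eq_true e)⟩
  · have := r a a.2
    rw [ofNat_coe] at this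
    show ap 8 255 c _ = _
    rw [← this.2, Fin.val_ofNat, Nat.mod_eq_of_lt this.1, (h.1 a a.2).2]

end H8
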