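import Cfsg.Agent.H8.Alt
import Cfsg.Agent.H8.Sub4

/-! H8.S8t: three-cycles in the symmetric group of degree 8 (generated certificate) -/

set_option autoImplicit false
set_option maxRecDepth 200000

set_option linter.all false
open Subgroup 

namespace H8.S8t

def sw (a b x : ℕ) : ℕ := ite' (Nat.beq x a) b (ite' (Nat.beq x b) a x)
def in3 (a b d x : ℕ) : Bool := bor (Nat.beq x a) (bor (Nat.beq x b) (Nat.beq x d))
def tri : List (ℕ × ℕ × ℕ) := [(1, 2, 7), (5, 6, 7), (1, 2, 4), (0, 2, 6), (0, 1, 4), (0, 1, 7), (2, 3, 6), (2, 6, 7), (1, 2, 5), (2, 3, 7), (4, 5, 7), (4, 6, 7), (0, 5, 6), (0, 2, 7), (0, 1, 5), (0, 3, 4), (0, 5, 7), (0, 4, 5), (1, 5, 7), (3, 5, 6), (3, 5, 7), (1, 3, 4), (2, 5, 6), (1, 5, 6), (1, 2, 3), (0, 3, 5), (1, 3, 7), (1, 6, 7), (1, 4, 7), (3, 4, 5), (2, 3, 5), (2, 4, 5), (0, 6, 7), (2, 4, 7), (0, 3, 7), (0, 4, 7), (3, 4, 6),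 (0, 1, 2), (1, 3, 5), (2, 5, 7), (0, 1, 3), (4, 5, 6), (0, 2, 3), (0, 3, 6), (1, 2, 6), (2, 4, 6), (1, 4, 5), (1, 3, 6), (1, 4, 6), (0, 2, 4), (0, 4, 6), (0, 1, 6), (3, 4, 7), (3, 6, 7), (2, 3, 4), (0, 2, 5)]
noncomputable def leaf (f : ℕ → ℕ) : Bool := anyL tri fun q => Prod.rec (fun a r => Prod.rec (fun b d => frc (f a) fun a' => frc (f b) fun b' =>
  band (ite' (in3 a b d a') (in3 a b d b') (bnot (in3 a b d b'))) (frc (f d) fun d' => band (ite' (in3 a b d a') (in3 a b d d') (bnot (in3 a b d d')))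
    (eqB (Alt.s8L.map Lev.b) (fun x => sw a b (sw a d (sw a' b' (sw a' d' x)))) fun x => sw a' b' (sw a' d' (sw a b (sw a d x)))))) r) q
theorem sw_rep : ∀ a < 8, ∀ b < 8, RepF 8 (Fin.ofNat 8) (sw a b) (Equiv.swap (Fin.ofNat 8 a) (Fin.ofNat 8 b)) := by
  unfold RepF; decide +kernel
theorem tri_ok : (allL tri fun q => band (Nat.ble (q.1 + 1) q.2.1) (band (Nat.ble (q.2.1 + 1) q.2.2) (Nat.ble (q.2.2 + 1) 8))) = true := by decide +kernel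
theorem e_0 : allR 0 1 (refu 8 (nat_lit 3) (nat_lit 7) Alt.s8T ⟨fun _ _ => 0, fun _ _ _ => true, leaf⟩ Alt.s8L0 [Alt.s8L1, Alt.s8L2, Alt.s8L3, Alt.s8L4, Alt.s8L5, Alt.s8L6] []) = true := by decide +kernel
theorem e_1 : allR 1 1 (refu 8 (nat_lit 3) (nat_lit 7) Alt.s8T ⟨fun _ _ => 0, fun _ _ _ => true, leaf⟩ Alt.s8L0 [Alt.s8L1, Alt.s8L2, Alt.s8L3, Alt.s8L4, Alt.s8L5, Alt.s8L6] []) = true := by decide +kernel
theorem e_2 : allR 2 1 (refu 8 (nat_lit 3) (nat_lit 7) Alt.s8T ⟨fun _ _ => 0, fun _ _ _ => true, leaf⟩ Alt.s8L0 [Alt.s8L1, Alt.s8L2, Alt.s8L3, Alt.s8L4, Alt.s8L5, Alt.s8L6] []) = true := by decide +kernel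
theorem e_3 : allR 3 1 (refu 8 (nat_lit 3) (nat_lit 7) Alt.s8T ⟨fun _ _ => 0, fun _ _ _ => true, leaf⟩ Alt.s8L0 [Alt.s8L1, Alt.s8L2, Alt.s8L3, Alt.s8L4, Alt.s8L5, Alt.s8L6] []) = true := by decide +kernel
theorem e_4 : allR 4 1 (refu 8 (nat_lit 3) (nat_lit 7) Alt.s8T ⟨fun _ _ => 0, fun _ _ _ => true, leaf⟩ Alt.s8L0 [Alt.s8L1, Alt.s8L2, Alt.s8L3, Alt.s8L4, Alt.s8L5, Alt.s8L6] []) = true := by decide +kernel
theorem e_5 : allR 5 1 (refu 8 (nat_lit 3) (nat_lit 7) Alt.s8T ⟨fun _ _ => 0, fun _ _ _ => true, leaf⟩ Alt.s8L0 [Alt.s8L1, Alt.s8L2, Alt.s8L3, Alt.s8L4, Alt.s8L5, Alt.s8L6] []) = true := by decide +kernel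
theorem e_6 : allR 6 1 (refu 8 (nat_lit 3) (nat_lit 7) Alt.s8T ⟨fun _ _ => 0, fun _ _ _ => true, leaf⟩ Alt.s8L0 [Alt.s8L1, Alt.s8L2, Alt.s8L3, Alt.s8L4, Alt.s8L5, Alt.s8L6] []) = true := by decide +kernel
theorem e_7 : allR 7 1 (refu 8 (nat_lit 3) (nat_lit 7) Alt.s8T ⟨fun _ _ => 0, fun _ _ _ => true, leaf⟩ Alt.s8L0 [Alt.s8L1, Alt.s8L2, Alt.s8L3, Alt.s8L4, Alt.s8L5, Alt.s8L6] []) = true := by decide +kernel
theorem e : allR 0 8 (refu 8 (nat_lit 3) (nat_lit 7) Alt.s8T ⟨fun _ _ => 0, fun _ _ _ => true, leaf⟩ Alt.s8L0 [Alt.s8L1, Alt.s8L2, Alt.s8L3, Alt.s8L4, Alt.s8L5, Alt.s8L6] []) = true := (allR_add (allR_add (allR_add (allR_add (allR_add (allR_add (allR_add e_0 e_1) e_2) e_3) e_4) e_5) e_6) e_7)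
theorem ex (c : Equiv.Perm (Fin 8)) : ∃ τ : Equiv.Perm (Fin 8), τ.IsThreeCycle ∧ Commute τ (c * τ * c⁻¹) := by
  have C := Alt.s8ch
  obtain ⟨f, r, h⟩ := C.enum e c
  obtain ⟨⟨a, b, d⟩, hq, h⟩ := anyL_spec h
  have t := allL_iff.1 tri_ok _ hq
  simp only [band_eq_true, Nat.ble_eq, frc_eq] at t h
  obtain ⟨t1, t2, t3⟩ := t
  have ha : a < 8 := by omega
  have hb : b < 8 := by omega
  have e := (eqB_iff C.base C.inj ((sw_rep a ha b hb).comp ((sw_rep a ha d t3).comp ((sw_rep _ (r a ha).1 _ (r b hb).1).comp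
    (sw_rep _ (r a ha).1 _ (r d t3).1)))) ((sw_rep _ (r a ha).1 _ (r b hb).1).comp ((sw_rep _ (r a ha).1 _ (r d t3).1).comp
    ((sw_rep a ha b hb).comp (sw_rep a ha d t3))))).1 h.2.2
  refine ⟨_, Equiv.Perm.isThreeCycle_swap_mul_swap_same (fun e => absurd (C.inj a ha b hb e) (by omega)) (fun e => absurd (C.inj a ha d t3 e) (by omega))
    (fun e => absurd (C.inj b hb d t3 e) (by omega)), ?_⟩
  rw [(r a ha).2, (r b hb).2, (r d t3).2] at e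
  simp only [Equiv.Perm.smul_def, Equiv.swap_apply_apply] at e
  simpa [Commute, SemiconjBy, mul_assoc] using e

end H8.S8t
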