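import Cfsg.Agent.H8.GS43
import Cfsg.Agent.H8.Glue
import Cfsg.Agent.S0245
import Cfsg.Agent.S0246

/-! H8.XS43: `iso`: PSp(4,3) is isomorphic to `P` (generated certificate) -/

set_option autoImplicit false
set_option maxRecDepth 200000

open Matrix

namespace H8.S43

noncomputable def V : Tr ℕ := (.node (nat_lit 20) (.node (nat_lit 10) (.node (nat_lit 5) (.node (nat_lit 2) (.node (nat_lit 1) (.leaf (nat_lit 1)) (.leaf (nat_lit 4))) (.node (nat_lit 3) (.leaf (nat_lit 5)) (.node (nat_lit 4) (.leaf (nat_lit 9)) (.leaf (nat_lit 16)))))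
 (.node (nat_lit 7) (.node (nat_lit 6) (.leaf (nat_lit 17)) (.leaf (nat_lit 20))) (.node (nat_lit 8) (.leaf (nat_lit 21)) (.node (nat_lit 9) (.leaf (nat_lit 25)) (.leaf (nat_lit 33))))))
 (.node (nat_lit 15) (.node (nat_lit 12) (.node (nat_lit 11) (.leaf (nat_lit 36)) (.leaf (nat_lit 37))) (.node (nat_lit 13) (.leaf (nat_lit 41)) (.node (nat_lit 14) (.leaf (nat_lit 64)) (.leaf (nat_lit 65)))))
 (.node (nat_lit 17) (.node (nat_lit 16) (.leaf (nat_lit 68)) (.leaf (nat_lit 69))) (.node (nat_lit 18) (.leaf (nat_lit 73)) (.node (nat_lit 19) (.leaf (nat_lit 80)) (.leaf (nat_lit 81)))))))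
 (.node (nat_lit 30) (.node (nat_lit 25) (.node (nat_lit 22) (.node (nat_lit 21) (.leaf (nat_lit 84)) (.leaf (nat_lit 85))) (.node (nat_lit 23) (.leaf (nat_lit 89)) (.node (nat_lit 24) (.leaf (nat_lit 97)) (.leaf (nat_lit 100)))))
 (.node (nat_lit 27) (.node (nat_lit 26) (.leaf (nat_lit 101)) (.leaf (nat_lit 105))) (.node (nat_lit 28) (.leaf (nat_lit 129)) (.node (nat_lit 29) (.leaf (nat_lit 132)) (.leaf (nat_lit 133))))))
 (.node (nat_lit 35) (.node (nat_lit 32) (.node (nat_lit 31) (.leaf (nat_lit 137)) (.leaf (nat_lit 144))) (.node (nat_lit 33) (.leaf (nat_lit 145)) (.node (nat_lit 34) (.leaf (nat_lit 148)) (.leaf (nat_lit 149)))))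
 (.node (nat_lit 37) (.node (nat_lit 36) (.leaf (nat_lit 153)) (.leaf (nat_lit 161))) (.node (nat_lit 38) (.leaf (nat_lit 164)) (.node (nat_lit 39) (.leaf (nat_lit 165)) (.leaf (nat_lit 169))))))))
theorem pts : ptR C3 4 true V 40 0 40 = true := by decide +kernel
noncomputable def M0 : Sp := [[(nat_lit 2, nat_lit 2), (nat_lit 3, nat_lit 2)],
  [(nat_lit 0, nat_lit 2), (nat_lit 1, nat_lit 1), (nat_lit 2, nat_lit 1), (nat_lit 3, nat_lit 2)],
  [(nat_lit 1, nat_lit 1), (nat_lit 3, nat_lit 2)],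
  [(nat_lit 0, nat_lit 1), (nat_lit 1, nat_lit 2), (nat_lit 2, nat_lit 1), (nat_lit 3, nat_lit 1)]]
noncomputable def M1 : Sp := [[(nat_lit 0, nat_lit 1)],
  [(nat_lit 0, nat_lit 2), (nat_lit 1, nat_lit 1), (nat_lit 3, nat_lit 1)],
  [(nat_lit 0, nat_lit 2), (nat_lit 1, nat_lit 1), (nat_lit 2, nat_lit 1), (nat_lit 3, nat_lit 2)],
  [(nat_lit 1, nat_lit 1), (nat_lit 3, nat_lit 2)]]
noncomputable def MT : Tr Sp := (.node (nat_lit 1) (.leaf M0) (.leaf M1))
noncomputable def SC : Tr ℕ := (.node (nat_lit 1) (.leaf (nat_lit 0xaaa99566955aa956aa56)) (.leaf (nat_lit 0x55599656565595555555)))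
theorem act : ActAll C3 4 true V 40 (nat_lit 6) (nat_lit 63) MT G0 SC 2 := actAll_of (by decide +kernel)
noncomputable def BJ (i j : ℕ) : ℕ := ite' (Nat.beq j (i + 2)) 2 (ite' (Nat.beq i (j + 2)) 1 0)
theorem pw : ∀ j < 2, bilChk C3 4 BJ (fun a => a) (MT.get j) = true := by decide +kernel
theorem cen : Subgroup.center P = ⊥ := center_eq_bot lets base (nat_lit 0) [[nat_lit 5, nat_lit 3]] [[], [nat_lit 5, nat_lit 7], [nat_lit 4, nat_lit 7, nat_lit 1, nat_lit 7], [nat_lit 5, nat_lit 2, nat_lit 7], [nat_lit 4, nat_lit 1, nat_lit 7]] (by decide +kernel)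
theorem iso {F : Type*} [Field F] [Fintype F] (hF : Fintype.card F = 3) :
    Nonempty (Cfsg.PSp 2 F ≃* P) := by
  haveI : CharP F 3 := charP_of_card (k := 1) (by norm_num) hF
  have h := fm3 (F := F)
  have t : (3 : F) = 0 := CharP.cast_eq_zero F 3
  have hx := ix_sum 2 2
  refine iso_quot_center gen (h.pt_inj hx (symplecticGroup (Fin 2) F).subtype pts)
    (act.lets h hx fun j hj => h.exists_Sp hx ?_ (pw j hj)) cen ?_
  · have n1 : ((2 : ℕ) : F) = (-1 : F) := by rw [← h.one]; exact eq_neg_of_add_eq_zero_left (by rw [← h.add, ← h.zero]; exact h.eqv.1 (by decide +kernel))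
    ext (i | i) (j | j) <;> fin_cases i <;> fin_cases j <;>
      first | exact h.zero | exact n1 | exact h.one.trans (neg_neg _).symm | exact h.one | exact h.zero.trans neg_zero.symm
  · have h1 := Subgroup.card_eq_card_quotient_mul_card_subgroup (Subgroup.center (symplecticGroup (Fin 2) F))
    rw [Cfsg.Agent.S0245.result hF, Cfsg.Agent.S0246.result hF 2 (by norm_num)] at h1
    simp only [Finset.prod_range_succ, Finset.prod_range_zero] at h1
    norm_num at h1
    rw [card]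
    omega

end H8.S43
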