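import Cfsg.Agent.H8.XTi
import Cfsg.Agent.H8.STi

/-! H8.XTi2: the Tits group is isomorphic to the permutation model -/

set_option autoImplicit false

namespace H8

theorem iso_comm {G X : Type*} [Group G] [MulAction G X] {n k m N0 : ℕ} [NeZero n] {pt : ℕ → X} {G0 : Tr ℕ} [Finite G]
    (h0 : genChk n k m G0 N0 = true) (hinj : ∀ a < n, ∀ b < n, pt a = pt b → a = b)
    (hg : ∀ j < N0, ∃ g : commutator G, Rep n k m pt (G0.get j) g)
    (hc : Nat.card (commutator G) ≤ Nat.card (PG n k m G0 N0)) : Nonempty (commutator G ≃* PG n k m G0 N0) :=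
  iso_of_card' h0 hinj hg hc

namespace Ti

theorem fin2 : Finite (Cfsg.Lie.twistedF4 (ZMod 2) 1) := Nat.finite_of_card_ne_zero (by rw [card2]; norm_num)

theorem iso : Nonempty (Cfsg.Lie.TitsGroup ≃* P) :=
  haveI := fin2
  iso_comm (G := Cfsg.Lie.twistedF4 (ZMod 2) 1) (pt := pt) gen fch.inj cgens cle

theorem tcard : Nat.card Cfsg.Lie.TitsGroup = 17971200 := (Nat.card_congr iso.some.toEquiv).trans card

theorem tsimple : IsSimpleGroup Cfsg.Lie.TitsGroup := @MulEquiv.isSimpleGroup _ _ P _ simple iso.some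

end Ti
end H8
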