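import Cfsg.Agent.H8.GU32
import Cfsg.Agent.H8.Glue
import Cfsg.Agent.S0280

/-! H8.XU32: `iso`: PSU(3,2) is isomorphic to `P` (generated certificate) -/

set_option autoImplicit false
set_option maxRecDepth 200000

open Matrix

namespace H8.U32

noncomputable def V : Tr ℕ := (.node (nat_lit 4) (.node (nat_lit 2) (.node (nat_lit 1) (.leaf (nat_lit 5)) (.leaf (nat_lit 9))) (.node (nat_lit 3) (.leaf (nat_lit 13)) (.leaf (nat_lit 17))))
 (.node (nat_lit 6) (.node (nat_lit 5) (.leaf (nat_lit 20)) (.leaf (nat_lit 33))) (.node (nat_lit 7) (.leaf (nat_lit 36)) (.node (nat_lit 8) (.leaf (nat_lit 49)) (.leaf (nat_lit 52))))))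
theorem pts : ptR C4 3 true V 9 0 9 = true := by decide +kernel
noncomputable def M0 : Sp := [[(nat_lit 0, nat_lit 3), (nat_lit 1, nat_lit 3), (nat_lit 2, nat_lit 3)],
  [(nat_lit 0, nat_lit 2), (nat_lit 1, nat_lit 1), (nat_lit 2, nat_lit 3)],
  [(nat_lit 0, nat_lit 1), (nat_lit 1, nat_lit 2), (nat_lit 2, nat_lit 3)]]
noncomputable def M1 : Sp := [[(nat_lit 0, nat_lit 3), (nat_lit 1, nat_lit 3), (nat_lit 2, nat_lit 1)],
  [(nat_lit 0, nat_lit 2), (nat_lit 1, nat_lit 1), (nat_lit 2, nat_lit 1)],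
  [(nat_lit 0, nat_lit 3), (nat_lit 1, nat_lit 1), (nat_lit 2, nat_lit 3)]]
noncomputable def MT : Tr Sp := (.node (nat_lit 1) (.leaf M0) (.leaf M1))
noncomputable def SC : Tr ℕ := (.node (nat_lit 1) (.leaf (nat_lit 98142)) (.leaf (nat_lit 219102)))
theorem act : ActAll C4 3 true V 9 (nat_lit 4) (nat_lit 15) MT G0 SC 2 := actAll_of (by decide +kernel)
noncomputable def OT : Tr ℕ := (.node (nat_lit 1) (.leaf (nat_lit 4)) (.leaf (nat_lit 4)))
theorem pw : ∀ j < 2, powChk C4 3 (MT.get j) (OT.get j) = true ∧ 0 < OT.get j ∧ Nat.Coprime (OT.get j) 3 ∧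
    bilChk C4 3 idF (fun a => C4.pow a 2) (MT.get j) = true := by decide +kernel
theorem cen : Subgroup.center P = ⊥ := center_eq_bot lets base (nat_lit 0) [[nat_lit 2]] [[], [nat_lit 3, nat_lit 4]] (by decide +kernel)
theorem iso {F : Type*} [Field F] [Fintype F] (hF : Fintype.card F = 4) :
    Nonempty (Cfsg.PSU 3 F 2 ≃* P) := by
  haveI : CharP F 2 := charP_of_card (k := 2) (by norm_num) hF
  obtain ⟨ω, hω⟩ := exists_fm4 hF
  have h := fm4 hω
  refine iso_quot_center gen (h.pt_inj (ix_fin 3) (τSU 3 F 2) pts)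
    (act.lets h (ix_fin 3) fun j hj => h.exists_SU 2 1 rfl (pw j hj).1 (pw j hj).2.1 (by rw [hF]; exact (pw j hj).2.2.1)
      (pw j hj).2.2.2) cen ?_
  have := Cfsg.Agent.S0280.result (q := 2) hF 3 (by norm_num)
  rw [card]
  simp only [Finset.prod_range_succ, Finset.prod_range_zero] at this
  norm_num [Nat.even_iff] at this
  show Nat.card (Cfsg.PSU 3 F 2) ≤ _
  omega

end H8.U32
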