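import Cfsg.Agent.H8.XU32
import Cfsg.Agent.H8.GA
import Cfsg.Agent.H8.MG
import Cfsg.Agent.H8.Sub3
import Cfsg.Agent.H8.Sub4

/-! H8.YU32: PSU(3,2) maps onto Q8 with kernel 3^2 (generated certificate) -/

set_option autoImplicit false
set_option maxRecDepth 200000

set_option linter.all false
open Subgroup 

namespace H8.U32Y

noncomputable def iI : Tr (List ℕ) := (.node (nat_lit 2) (.node (nat_lit 1) (.leaf [nat_lit 0]) (.leaf [nat_lit 1])) (.node (nat_lit 3) (.leaf [nat_lit 2]) (.node (nat_lit 4) (.leaf [nat_lit 3]) (.leaf [nat_lit 1, nat_lit 1]))))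
theorem ih : U32.RL.all (fun w => eqB (MG.q8L.map Lev.b) (apF (fun y => apL (nat_lit 3) (nat_lit 7) MG.q8T (iI.get y)) w) fun a => a) = true := by decide +kernel
noncomputable def iD : Tr (List ℕ) := (.node (nat_lit 2) (.node (nat_lit 1) (.leaf [nat_lit 0]) (.leaf [nat_lit 1])) (.node (nat_lit 3) (.leaf [nat_lit 2]) (.leaf [nat_lit 3])))
theorem is : (surChk (nat_lit 3) (nat_lit 7) (MG.q8L.map Lev.b) MG.q8T iI (topN U32.L) iD (topN MG.q8L)) = true := by decide +kernel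
noncomputable def rt0 : ℕ := (nat_lit 0x517230864)
noncomputable def rt1 : ℕ := (nat_lit 0x261804573)
noncomputable def rt2 : ℕ := (nat_lit 0x82416357)
noncomputable def rt3 : ℕ := (nat_lit 0x703152648)
noncomputable def rT : Tr ℕ := (.node (nat_lit 2) (.node (nat_lit 1) (.leaf rt0) (.leaf rt1)) (.node (nat_lit 3) (.leaf rt2) (.leaf rt3)))
noncomputable def rL0 : Lev := ⟨(nat_lit 0), (nat_lit 4), (nat_lit 0x30404030201030400), (nat_lit 0x10102020101020200),
 (.leaf 0),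
 (.leaf 0)⟩
noncomputable def rL : List Lev := [rL0]
noncomputable def rE : Tr (List ℕ) := (.node (nat_lit 2) (.node (nat_lit 1) (.leaf [nat_lit 3, nat_lit 1, nat_lit 4, nat_lit 3, nat_lit 1]) (.leaf [nat_lit 2, nat_lit 1, nat_lit 4, nat_lit 2, nat_lit 1])) (.node (nat_lit 3) (.leaf [nat_lit 4, nat_lit 1, nat_lit 1]) (.leaf [nat_lit 1, nat_lit 1, nat_lit 4])))
theorem rw_0 : rT.all2 (fun c w => isProd 9 (nat_lit 4) (nat_lit 15) U32.T c w) rE = true := by decide +kernel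
theorem rw : rT.all2 (fun c w => isProd 9 (nat_lit 4) (nat_lit 15) U32.T c w) rE = true := rw_0
theorem rk : rE.all (fun w => band (allL w fun j => Nat.ble (Nat.succ j) (topN U32.L)) (eqB (MG.q8L.map Lev.b) (apF (fun y => apL (nat_lit 3) (nat_lit 7) MG.q8T (iI.get y)) w) fun a => a)) = true := by decide +kernel
theorem rc : band (tchainChk 9 (nat_lit 4) (nat_lit 15) rT rL) (band (Nat.ble 1 (chainOrd 8 MG.q8L)) (Nat.ble (chainOrd 9 U32.L) (chainOrd 9 rL * chainOrd 8 MG.q8L))) = true := by decide +kernel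
theorem rx : allR 0 9 (refu 9 (nat_lit 4) (nat_lit 15) rT ⟨fun _ _ => 0, fun _ _ _ => true, fun f => eqB (rL.map Lev.b) (itF f 3) fun a => a⟩ rL0 [] []) = true := by decide +kernel
theorem main : ∃ φ : U32.P →* QuaternionGroup 2, Function.Surjective φ ∧ Nat.card φ.ker = 9 ∧ ∀ x : φ.ker, x ^ 3 = 1 := by
  obtain ⟨φ, h1, h2, h3⟩ := (U32.std.surW MG.q8ch ih is)
  have CK := (Ch.ker (h2.lets_ker MG.q8ch.base MG.q8ch.inj rw rk) U32.std.inj h3 rc)
  exact ⟨φ, h1, CK.card.trans (by decide +kernel), CK.expo rx⟩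
theorem psu {F : Type*} [Field F] [Fintype F] (hF : Fintype.card F = 4) :
    ∃ φ : Cfsg.PSU 3 F 2 →* QuaternionGroup 2, Function.Surjective φ ∧ Nat.card φ.ker = 9 ∧ ∀ x ∈ φ.ker, x ^ 3 = 1 := by
  obtain ⟨e⟩ := U32.iso hF
  obtain ⟨φ, h1, h2, h3⟩ := main
  refine ⟨φ.comp e.toMonoidHom, h1.comp e.surjective, ?_, fun x hx => e.injective ?_⟩
  · exact (Nat.card_congr (e.toEquiv.subtypeEquiv fun _ => Iff.rfl)).trans h2
  · rw [map_pow, map_one]
    exact congrArg Subtype.val (h3 ⟨e x, hx⟩)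

end H8.U32Y
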